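import Cfsg.Agent.H576.E8L.Proj
import Cfsg.Agent.H239.E8P.Tab
import Cfsg.Agent.H610.ChevRegular
import Mathlib

/-!
# S5925, box F: the matrix of the torus element of order five

* `YY_form` : helper576's `YY w h` has the diagonal entries `w ^ mv s` (`H239.E8P.mv`) and lies in the diagonal
  subgroup (`YY_diag`);
* `hform_chi`, `hform_simple` : the same form from the values `w ^ (4, 4, 4, 4, 1, 4, 4, 4)` on the simple roots.
-/

set_option autoImplicit false
set_option maxRecDepth 100000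

namespace Cfsg.Agent.H277.E83

open Matrix Cfsg Cfsg.Lie Cfsg.Agent.ChevalleyStructure Cfsg.Agent.ChevalleyStructure.Elts
  Cfsg.Agent.ChevalleyStructure.RootVec
open Cfsg.Agent.ChevalleyStructure.CoxeterGeomTypes
open Cfsg.Agent.Nodes.RGDChev Cfsg.Agent.KFacts.RgdChevCoord Cfsg.Agent.H129.TorusChar
open Cfsg.Agent.H942.E8Tab Cfsg.Agent.H942.CB
open Cfsg.Agent.H992.E8X (X hE8)
open Cfsg.Agent.H610.ChevRegular
open Cfsg.Agent.H238.E8
open Cfsg.Agent.H576.E8L (YY YY_mat mx)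
open Cfsg.Agent.H239.E8P (mv yv)

theorem mx_mv : ∀ s < 240, (mx s - mv s) % 5 = 0 := by decide +kernel

theorem YY_form {K : Type} [Field K] {w : Kˣ} (h : w ^ 5 = 1) :
    (((YY w h : ↥(chevE8.group K)) : GL chevE8.Idx K) : Matrix chevE8.Idx chevE8.Idx K) =
      Matrix.diagonal (Sum.elim (fun _ => (1 : K)) (fun s => (w : K) ^ (mv s.val))) := by
  rw [YY_mat]
  congr 2
  funext s
  rw [← Units.val_zpow_eq_zpow_val]
  congr 1
  obtain ⟨c, hc⟩ := Int.dvd_of_emod_eq_zero (mx_mv s.val s.2)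
  have h5 : w ^ (5 * c) = 1 := by
    rw [_root_.zpow_mul, show (5 : ℤ) = ((5 : ℕ) : ℤ) from rfl, zpow_natCast, h, _root_.one_zpow]
  rw [← hc, _root_.zpow_sub] at h5
  exact mul_inv_eq_one.1 h5

theorem YY_TT {K : Type} [Field K] {w : Kˣ} (h : w ^ 5 = 1) : YY w h ∈ TT chevE8 K :=
  mul_mem (ph1_dg _ (Cfsg.Agent.H576.E8L.dw_prod h)).1 (ph2_dg _ (Cfsg.Agent.H576.E8L.dw_prod h)).1

theorem YY_diag {K : Type} [Field K] {w : Kˣ} (h : w ^ 5 = 1) :
    ((YY w h : ↥(chevE8.group K)) : GL chevE8.Idx K) ∈ chevE8.diagonalSubgroup K :=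
  Subgroup.mem_subgroupOf.1 (YY_TT h)

theorem mv_rt : ∀ s < 240, mv s = ∑ m ∈ Finset.range 8, yv.getD m 0 * rt chevE8 s m := by
  decide +kernel

/-- from the character of `h` -/
theorem hform_chi {K : Type*} [Field K] {h : GL chevE8.Idx K} {χ : ℕ → K} (hh : Chi hE8 h χ) {w : K} (hw : w ≠ 0)
    (hs : ∀ m < 8, χ (chevE8.simple m) = w ^ yv.getD m 0) :
    (h : Matrix chevE8.Idx chevE8.Idx K) =
      Matrix.diagonal (Sum.elim (fun _ => 1) (fun s => w ^ mv s.val)) := by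
  rw [hh.mat]
  congr 1
  funext v
  rcases v with j | s
  · rfl
  · show χ s.val = w ^ mv s.val
    rw [hh.prod s.val s.2, mv_rt s.val s.2, zpow_sum hw]
    refine Finset.prod_congr rfl fun j hj => ?_
    rw [hs j (Finset.mem_range.1 hj), _root_.zpow_mul]

/-- from the diagonal entries at the simple roots -/
theorem hform_simple {K : Type*} [Field K] {h : GL chevE8.Idx K} (hh : h ∈ chevE8.diagonalSubgroup K) {w : K}
    (hw : w ≠ 0)
    (hs : ∀ (m : ℕ) (s : Fin chevE8.nroots), m < 8 → s.val = chevE8.simple m →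
      (h : Matrix chevE8.Idx chevE8.Idx K) (Sum.inr s) (Sum.inr s) = w ^ yv.getD m 0) :
    (h : Matrix chevE8.Idx chevE8.Idx K) =
      Matrix.diagonal (Sum.elim (fun _ => 1) (fun s => w ^ mv s.val)) := by
  obtain ⟨χ, hχ⟩ := exists_chi hE8 hh
  refine hform_chi hχ hw fun m hm => ?_
  have h1 := hs m ⟨chevE8.simple m, simple_lt (checked hE8) hm⟩ hm rfl
  rw [hχ.mat, Matrix.diagonal_apply_eq] at h1
  exact h1

end Cfsg.Agent.H277.E83
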