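import Mathlib

/-!
# S5925, box F: a symmetric matrix from an involution

If `A ↦ q⁻¹ (q⁻¹ Aᵀ q)ᵀ q` fixes all `E_ij`, `i ≠ j` (five by five matrices over a field), then `q`
is symmetric.
-/

set_option autoImplicit false

namespace Cfsg.Agent.H277.E83

open Matrix

theorem symm_of_invol {K : Type*} [Field K] (q q' : Matrix (Fin 5) (Fin 5) K) (h1 : q * q' = 1)
    (h2 : q' * q = 1)
    (hi : ∀ i j : Fin 5, i ≠ j →
      q' * (q' * (Matrix.single i j (1 : K))ᵀ * q)ᵀ * q = Matrix.single i j 1) : qᵀ = q := by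
  have t1 : q'ᵀ * qᵀ = 1 := by rw [← Matrix.transpose_mul, h1, Matrix.transpose_one]
  have t2 : qᵀ * q'ᵀ = 1 := by rw [← Matrix.transpose_mul, h2, Matrix.transpose_one]
  have hMM : (q'ᵀ * q) * (q' * qᵀ) = 1 := by
    rw [Matrix.mul_assoc, ← Matrix.mul_assoc q, h1, Matrix.one_mul, t1]
  have hc : Pairwise fun i j : Fin 5 => Commute (Matrix.single i j (1 : K)) (q' * qᵀ) := by
    intro i j hij
    have h := hi i j hij
    rw [Matrix.transpose_mul, Matrix.transpose_mul, Matrix.transpose_transpose] at h
    have h' : (q' * qᵀ) * Matrix.single i j (1 : K) * (q'ᵀ * q) = Matrix.single i j 1 := by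
      refine Eq.trans ?_ h
      simp only [Matrix.mul_assoc]
    show Matrix.single i j (1 : K) * (q' * qᵀ) = (q' * qᵀ) * Matrix.single i j (1 : K)
    calc Matrix.single i j (1 : K) * (q' * qᵀ)
        = (q' * qᵀ) * Matrix.single i j (1 : K) * (q'ᵀ * q) * (q' * qᵀ) := by rw [h']
      _ = (q' * qᵀ) * Matrix.single i j (1 : K) := by
          rw [Matrix.mul_assoc _ (q'ᵀ * q), hMM, Matrix.mul_one]
  obtain ⟨l, hl⟩ := Matrix.mem_range_scalar_of_commute_single hc
  have hq : qᵀ = l • q := by
    have := congrArg (fun M => q * M) hl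
    simp only [← Matrix.mul_assoc, h1, Matrix.one_mul] at this
    rw [← this, Matrix.scalar_apply, ← Matrix.smul_eq_mul_diagonal]
  have hq2 : q = (l * l) • q := by
    conv_lhs => rw [← Matrix.transpose_transpose q, hq, Matrix.transpose_smul, hq, smul_smul]
  have hl2 : l * l = 1 := by
    have h := congrArg (fun M => (q' * M) 0 0) hq2
    simp only [Matrix.mul_smul, h2, Matrix.smul_apply, Matrix.one_apply_eq, smul_eq_mul,
      mul_one] at h
    exact h.symm
  have hd : q.det ≠ 0 := by
    intro h0
    have := congrArg Matrix.det h1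
    rw [Matrix.det_mul, h0, zero_mul, Matrix.det_one] at this
    exact zero_ne_one this
  have hl5 : l ^ 5 = 1 := by
    have h := congrArg Matrix.det hq
    rw [Matrix.det_transpose, Matrix.det_smul, Fintype.card_fin] at h
    have : (l ^ 5 - 1) * q.det = 0 := by linear_combination -h
    rcases mul_eq_zero.1 this with h | h
    · exact sub_eq_zero.1 h
    · exact absurd h hd
  have hl1 : l = 1 := by
    calc l = l ^ 5 - (l * l - 1) * (l * l + 1) * l := by ring
      _ = 1 := by rw [hl5, hl2]; ring
  rw [hq, hl1, one_smul]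

end Cfsg.Agent.H277.E83
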